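import Mathlib
import Cfsg.Agent.Lib.Compute.DoubleCover

/-!
# Group theory for involution centralizers

Bounds for centralizers from lists of conjugates, homomorphisms from compatible pairs, and the
recognition of a non-split double cover, and of a single class of involutions from a Sylow 2-subgroup.
-/

set_option autoImplicit false

namespace Cfsg.Agent.Lib.Compute.McLInv.Abs

open Cfsg

/-- A list of distinct conjugates bounds the centralizer. -/
theorem card_cent_le {G : Type*} [Group G] [Finite G] (t : G) {n : ℕ} (x : Fin n → G)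
    (hx : Function.Injective fun i => x i * t * (x i)⁻¹) :
    n * Nat.card (Subgroup.centralizer ({t} : Set G)) ≤ Nat.card G := by
  have hcomm : ∀ c : Subgroup.centralizer ({t} : Set G), (c : G) * t = t * c := by
    intro c
    exact (Subgroup.mem_centralizer_iff.1 c.2 t rfl).symm
  have hconj : ∀ (g : G) (c : Subgroup.centralizer ({t} : Set G)),
      (g * c) * t * (g * c)⁻¹ = g * t * g⁻¹ := by
    intro g c
    have h1 : (c : G) * t * (c : G)⁻¹ = t := by
      rw [hcomm c]
      group
    calc (g * c) * t * (g * c)⁻¹ = g * ((c : G) * t * (c : G)⁻¹) * g⁻¹ := by group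
      _ = g * t * g⁻¹ := by rw [h1]
  have hinj : Function.Injective
      (fun p : Fin n × Subgroup.centralizer ({t} : Set G) => x p.1 * (p.2 : G)) := by
    rintro ⟨i, c⟩ ⟨j, d⟩ h
    have h' : x i * (c : G) = x j * (d : G) := h
    have h2 : x i * t * (x i)⁻¹ = x j * t * (x j)⁻¹ := by
      rw [← hconj (x i) c, ← hconj (x j) d, h']
    have hij : i = j := hx h2
    subst hij
    have : c = d := Subtype.ext (mul_left_cancel h')
    rw [this]
  have h3 := Nat.card_le_card_of_injective _ hinj
  rwa [Nat.card_prod, Nat.card_fin] at h3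

/-- A compatible relation between two groups, with enough pairs, is the graph of a homomorphism. -/
theorem graph_hom {C A : Type*} [Group C] [Group A] [Finite C] [Finite A] (Pr : C → A → Prop)
    (h1 : Pr 1 1) (hmul : ∀ c c' a a', Pr c a → Pr c' a' → Pr (c * c') (a * a'))
    (hinv : ∀ c a, Pr c a → Pr c⁻¹ a⁻¹) (hone : ∀ a, Pr 1 a → a = 1) (hsurj : ∀ a, ∃ c, Pr c a)
    (z : C) (hz : z ≠ 1) (hz1 : Pr z 1) (hcard : Nat.card C ≤ 2 * Nat.card A) :
    ∃ ρ : C →* A, Function.Surjective ρ ∧ (∀ c, Pr c (ρ c)) ∧ Nat.card C = 2 * Nat.card A := by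
  classical
  let M : Subgroup (C × A) :=
    { carrier := {p | Pr p.1 p.2}
      mul_mem' := fun {a b} ha hb => hmul _ _ _ _ ha hb
      one_mem' := h1
      inv_mem' := fun {a} ha => hinv _ _ ha }
  have hmem : ∀ p : C × A, p ∈ M ↔ Pr p.1 p.2 := fun p => Iff.rfl
  let π₁ : M →* C := (MonoidHom.fst C A).comp M.subtype
  let π₂ : M →* A := (MonoidHom.snd C A).comp M.subtype
  have hπ₁ : ∀ p : M, π₁ p = (p : C × A).1 := fun p => rfl
  have hπ₂ : ∀ p : M, π₂ p = (p : C × A).2 := fun p => rfl
  have hinj : Function.Injective π₁ := by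
    rw [injective_iff_map_eq_one]
    rintro ⟨⟨c, a⟩, hp⟩ hc
    have hc' : c = 1 := hc
    subst hc'
    have ha : a = 1 := hone a hp
    subst ha
    rfl
  have hsurj₂ : Function.Surjective π₂ := by
    intro a
    obtain ⟨c, hc⟩ := hsurj a
    exact ⟨⟨(c, a), hc⟩, rfl⟩
  -- the kernel of the second projection has at least two elements
  have hk : 2 ≤ Nat.card π₂.ker := by
    let zz : π₂.ker := ⟨⟨(z, 1), hz1⟩, rfl⟩
    have hzz : zz ≠ 1 := by
      intro h
      apply hz
      exact congrArg (fun y : π₂.ker => ((y : M) : C × A).1) h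
    haveI : Nontrivial π₂.ker := ⟨⟨zz, 1, hzz⟩⟩
    exact Finite.one_lt_card
  have hM : Nat.card M = Nat.card π₂.ker * Nat.card A := by
    have h2 := Subgroup.card_mul_index π₂.ker
    rw [Subgroup.index_ker, MonoidHom.range_eq_top.2 hsurj₂, Subgroup.card_top] at h2
    exact h2.symm
  have hAp : 0 < Nat.card A := Nat.card_pos
  have hle : Nat.card M ≤ Nat.card C := Nat.card_le_card_of_injective _ hinj
  have hge : 2 * Nat.card A ≤ Nat.card M := by
    rw [hM]
    exact Nat.mul_le_mul_right _ hk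
  have hbij : Function.Bijective π₁ :=
    (Nat.bijective_iff_injective_and_card π₁).2 ⟨hinj, by omega⟩
  let e : M ≃* C := MulEquiv.ofBijective π₁ hbij
  refine ⟨π₂.comp e.symm.toMonoidHom, ?_, ?_, by omega⟩
  · intro a
    obtain ⟨p, hp⟩ := hsurj₂ a
    exact ⟨e p, by simp [hp]⟩
  · intro c
    have h3 : ((e.symm c : M) : C × A) ∈ M := (e.symm c).2
    have h4 : π₁ (e.symm c) = c := e.apply_symm_apply c
    have h5 : Pr ((e.symm c : M) : C × A).1 ((e.symm c : M) : C × A).2 := h3
    rw [← hπ₁, h4] at h5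
    exact h5

/-- Recognition of a non-split double cover from a homomorphism onto a simple group. -/
theorem nonsplit_of_hom {H Q : Type*} [Group H] [Group Q] [Finite H] [IsSimpleGroup Q]
    (hp : ¬ (Nat.card Q).Prime) (z : H) (hzc : z ∈ Subgroup.center H) (hz1 : z ≠ 1) (hz2 : z ^ 2 = 1)
    (ρ : H →* Q) (hρ : Function.Surjective ρ) (hzρ : ρ z = 1) (hcard : Nat.card H = 2 * Nat.card Q)
    (hL : ∀ L : Subgroup H, L.Normal → L.index = 2 → False) :
    IsNonsplitDoubleCover H Q := by
  classical
  haveI hnZ : (Subgroup.zpowers z).Normal := by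
    refine ⟨fun n hn g => ?_⟩
    have hn' : n ∈ Subgroup.center H := (Subgroup.zpowers_le.2 hzc) hn
    have : g * n * g⁻¹ = n := by
      rw [(Subgroup.mem_center_iff.1 hn') g]
      group
    rw [this]
    exact hn
  have hker : ρ.ker = Subgroup.zpowers z := by
    haveI hfQ : Finite Q := Finite.of_surjective ρ hρ
    have h1 : Nat.card ρ.ker * Nat.card Q = Nat.card H := by
      have h2 := Subgroup.card_mul_index ρ.ker
      rwa [Subgroup.index_ker, MonoidHom.range_eq_top.2 hρ, Subgroup.card_top] at h2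
    have hQp : 0 < Nat.card Q := Nat.card_pos
    have h3 : Nat.card ρ.ker = 2 := by
      rw [hcard] at h1
      exact Nat.eq_of_mul_eq_mul_right hQp h1
    have hord : orderOf z = 2 := orderOf_eq_prime hz2 hz1
    have h4 : Nat.card (Subgroup.zpowers z) = 2 := by rw [Nat.card_zpowers, hord]
    have h5 : Subgroup.zpowers z ≤ ρ.ker := by
      rw [Subgroup.zpowers_le]
      exact hzρ
    exact (Subgroup.eq_of_le_of_card_ge h5 (by rw [h3, h4])).symm
  let e1 : H ⧸ ρ.ker ≃* Q := QuotientGroup.quotientKerEquivOfSurjective ρ hρ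
  let e2 : H ⧸ ρ.ker ≃* H ⧸ Subgroup.zpowers z := QuotientGroup.quotientMulEquivOfEq hker
  let f : Q →* H ⧸ Subgroup.zpowers z := e2.toMonoidHom.comp e1.symm.toMonoidHom
  have hf : Function.Surjective f := by
    intro y
    exact ⟨e1 (e2.symm y), by simp [f]⟩
  exact DoubleCover.nonsplit_of_quot hp z hzc hz1 hz2 hcard f hf hL

/-- A subgroup of index two contains everything generated by elements of order three and a square,
when these generate modulo the kernel. -/
theorem no_index_two {H Q : Type*} [Group H] [Group Q] (ρ : H →* Q) (z : H)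
    (hker : ∀ c, ρ c = 1 → c = 1 ∨ c = z) (S : Set H) (hS : ∀ s ∈ S, s ^ 3 = 1) (x : H) (hx : x ^ 2 = z)
    (hgen : ∀ a : Q, a ∈ Subgroup.closure (ρ '' S)) (L : Subgroup H) (hLi : L.index = 2) : False := by
  have hsq : ∀ y : H, y ^ 2 ∈ L := fun y => Subgroup.sq_mem_of_index_two hLi y
  have hS' : ∀ s ∈ S, s ∈ L := by
    intro s hs
    have h1 : s = (s ^ 2) ^ 2 := by
      rw [← pow_mul, show 2 * 2 = 3 + 1 by norm_num, pow_succ, hS s hs, one_mul]
    rw [h1]
    exact hsq _
  have hzL : z ∈ L := hx ▸ hsq x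
  have hmap : L.map ρ = ⊤ := by
    rw [eq_top_iff]
    intro a _
    have h2 : Subgroup.closure (ρ '' S) ≤ L.map ρ := by
      rw [Subgroup.closure_le]
      rintro _ ⟨s, hs, rfl⟩
      exact ⟨s, hS' s hs, rfl⟩
    exact h2 (hgen a)
  have htop : L = ⊤ := by
    rw [eq_top_iff]
    intro c _
    have h3 : ρ c ∈ L.map ρ := by rw [hmap]; trivial
    obtain ⟨l, hl, hlc⟩ := h3
    have h4 : ρ (l⁻¹ * c) = 1 := by
      rw [map_mul, map_inv, hlc, inv_mul_cancel]
    have h5 : l⁻¹ * c ∈ L := by
      rcases hker _ h4 with h | h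
      · rw [h]; exact L.one_mem
      · rw [h]; exact hzL
    have h6 : c = l * (l⁻¹ * c) := by group
    rw [h6]
    exact L.mul_mem hl h5
  rw [htop, Subgroup.index_top] at hLi
  omega

/-- All involutions are conjugate, when this holds in a Sylow 2-subgroup. -/
theorem conj_of_sylow {G : Type*} [Group G] [Finite G] (P : Subgroup G) (k m : ℕ)
    (hP : Nat.card P = 2 ^ k) (hG : Nat.card G = 2 ^ k * m) (hm : Odd m) (t : G)
    (hconj : ∀ y ∈ P, y ^ 2 = 1 → y ≠ 1 → IsConj y t) (x : G) (hx : orderOf x = 2) : IsConj x t := by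
  classical
  haveI : Fact (Nat.Prime 2) := ⟨Nat.prime_two⟩
  have hPp : IsPGroup 2 P := IsPGroup.of_card hP
  obtain ⟨S, hS⟩ := hPp.exists_le_sylow
  -- `P` is the Sylow subgroup
  have hSP : (S : Subgroup G) = P := by
    refine (Subgroup.eq_of_le_of_card_ge hS ?_).symm
    obtain ⟨j, hj⟩ := IsPGroup.iff_card.1 S.isPGroup'
    rw [hP, hj]
    have h1 : Nat.card S ∣ Nat.card G := Subgroup.card_subgroup_dvd_card _
    rw [hj, hG] at h1
    have h2 : Nat.Coprime (2 ^ j) m := Nat.Coprime.pow_left _ (Nat.coprime_two_left.2 hm)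
    have h3 : 2 ^ j ∣ 2 ^ k := h2.dvd_of_dvd_mul_right h1
    exact Nat.le_of_dvd (by positivity) h3
  -- `x` lies in a Sylow subgroup
  have hxp : IsPGroup 2 (Subgroup.zpowers x) := by
    apply IsPGroup.of_card (n := 1)
    rw [Nat.card_zpowers, hx, pow_one]
  obtain ⟨S', hS'⟩ := hxp.exists_le_sylow
  obtain ⟨g, hg⟩ := MulAction.exists_smul_eq G S' S
  have hxS' : x ∈ (S' : Subgroup G) := hS' (Subgroup.mem_zpowers x)
  have hmem : g * x * g⁻¹ ∈ (S : Subgroup G) := by
    rw [← hg]
    exact (Subgroup.mem_map_of_mem (MulAut.conj g).toMonoidHom hxS')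
  rw [hSP] at hmem
  have h1 : (g * x * g⁻¹) ^ 2 = 1 := by
    rw [conj_pow, ← orderOf_dvd_iff_pow_eq_one.mp (by rw [hx]) |>.symm]
    simp
  have h2 : g * x * g⁻¹ ≠ 1 := by
    intro h
    have h3 : x = 1 := by
      have : x = g⁻¹ * (g * x * g⁻¹) * g := by group
      rw [this, h]
      group
    rw [h3, orderOf_one] at hx
    omega
  have h3 := hconj _ hmem h1 h2
  have h4 : IsConj x (g * x * g⁻¹) := isConj_iff.2 ⟨g, rfl⟩
  exact h4.trans h3

/-- The centralizer of the image under an isomorphism. -/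
noncomputable def centEquiv {G G' : Type*} [Group G] [Group G'] (e : G ≃* G') (t : G) :
    Subgroup.centralizer ({t} : Set G) ≃* Subgroup.centralizer ({e t} : Set G') := by
  refine (e.subgroupMap _).trans (MulEquiv.subgroupCongr ?_)
  ext y
  simp only [Subgroup.mem_map, MulEquiv.coe_toMonoidHom, Subgroup.mem_centralizer_singleton_iff]
  constructor
  · rintro ⟨a, ha, rfl⟩
    show e a * e t = e t * e a
    rw [← map_mul, ← map_mul, ha]
  · intro h
    refine ⟨e.symm y, ?_, by simp⟩
    apply e.injective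
    simp [h]

section ThreeCycles

open Equiv Equiv.Perm

variable {α : Type*} [DecidableEq α] [Fintype α]

/-- The index type of the generators. -/
abbrev Idx (a₀ a₁ : α) : Type _ := {i : α // i ≠ a₀ ∧ i ≠ a₁}

/-- The three-cycles through two given points. -/
def xx (a₀ a₁ i : α) : Perm α := swap a₀ a₁ * swap a₁ i

theorem sign_xx {a₀ a₁ i : α} (h : a₀ ≠ a₁) (hi : i ≠ a₁) : sign (xx a₀ a₁ i) = 1 := by
  rw [xx, map_mul, sign_swap h, sign_swap hi.symm]
  rfl

theorem xx_closure {a₀ a₁ : α} (h : a₀ ≠ a₁) {σ : Perm α} (hσ : sign σ = 1) :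
    σ ∈ Subgroup.closure (Set.range fun i : Idx a₀ a₁ => xx a₀ a₁ i.1) := by
  set H := Subgroup.closure (Set.range fun i : Idx a₀ a₁ => xx a₀ a₁ i.1) with hH
  set s := swap a₀ a₁ with hs
  have ss : s * s = 1 := swap_mul_self _ _
  have hinv : s⁻¹ = s := swap_inv _ _
  have h1 : ∀ x, x ≠ a₁ → s * swap a₁ x ∈ H := by
    intro x hx
    by_cases hx0 : x = a₀
    · rw [hx0, swap_comm a₁ a₀, ← hs, ss]
      exact H.one_mem
    · exact Subgroup.subset_closure ⟨⟨x, hx0, hx⟩, rfl⟩
  have h2 : ∀ x y, x ≠ y → s * swap x y ∈ H := by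
    intro x y hxy
    by_cases hx : x = a₁
    · subst hx
      exact h1 y hxy.symm
    by_cases hy : y = a₁
    · subst hy
      rw [swap_comm]
      exact h1 x hx
    · have e : swap x y = swap a₁ x * swap a₁ y * swap a₁ x := by
        have := swap_mul_swap_mul_swap (x := y) (y := a₁) (z := x) hy hxy.symm
        rw [swap_comm y a₁] at this
        exact this.symm
      have e2 : s * swap x y = (s * swap a₁ x) * (s * swap a₁ y)⁻¹ * (s * swap a₁ x) := by
        rw [e, mul_inv_rev, swap_inv, hinv]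
        calc s * (swap a₁ x * swap a₁ y * swap a₁ x)
            = s * swap a₁ x * (swap a₁ y * 1) * swap a₁ x := by group
          _ = s * swap a₁ x * (swap a₁ y * (s * s)) * swap a₁ x := by rw [ss]
          _ = _ := by group
      rw [e2]
      exact H.mul_mem (H.mul_mem (h1 x hx) (H.inv_mem (h1 y hy))) (h1 x hx)
  have h3 : ∀ f : Perm α, f ∈ H ∨ s * f ∈ H := by
    intro f
    induction f using swap_induction_on with
    | one => exact Or.inl H.one_mem
    | swap_mul f x y hxy ih =>
      rcases ih with ih | ih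
      · right
        rw [← mul_assoc]
        exact H.mul_mem (h2 x y hxy) ih
      · left
        have : swap x y * f = (s * swap x y)⁻¹ * (s * f) := by
          rw [mul_inv_rev, swap_inv, hinv]
          calc swap x y * f = swap x y * (s * s) * f := by rw [ss, mul_one]
            _ = _ := by group
        rw [this]
        exact H.mul_mem (H.inv_mem (h2 x y hxy)) ih
  have h4 : ∀ f ∈ H, sign f = 1 := by
    intro f hf
    have : H ≤ (sign : Perm α →* ℤˣ).ker := by
      rw [hH, Subgroup.closure_le]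
      rintro _ ⟨i, rfl⟩
      exact sign_xx h i.2.2
    exact this hf
  rcases h3 σ with h5 | h5
  · exact h5
  · exfalso
    have := h4 _ h5
    rw [map_mul, hσ, mul_one, hs, sign_swap h] at this
    exact absurd this (by decide)

end ThreeCycles

/-- The kernel of a map onto a group of half the order is generated by an involution in it. -/
theorem ker_eq_of_card {H Q : Type*} [Group H] [Group Q] [Finite H] (z : H) (hz1 : z ≠ 1) (hz2 : z ^ 2 = 1)
    (ρ : H →* Q) (hρ : Function.Surjective ρ) (hzρ : ρ z = 1) (hcard : Nat.card H = 2 * Nat.card Q) :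
    ∀ c, ρ c = 1 → c = 1 ∨ c = z := by
  classical
  haveI hfQ : Finite Q := Finite.of_surjective ρ hρ
  have h1 : Nat.card ρ.ker * Nat.card Q = Nat.card H := by
    have h2 := Subgroup.card_mul_index ρ.ker
    rwa [Subgroup.index_ker, MonoidHom.range_eq_top.2 hρ, Subgroup.card_top] at h2
  have hQp : 0 < Nat.card Q := Nat.card_pos
  have h3 : Nat.card ρ.ker = 2 := by
    rw [hcard] at h1
    exact Nat.eq_of_mul_eq_mul_right hQp h1
  have hord : orderOf z = 2 := orderOf_eq_prime hz2 hz1
  have h4 : Nat.card (Subgroup.zpowers z) = 2 := by rw [Nat.card_zpowers, hord]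
  have h5 : Subgroup.zpowers z ≤ ρ.ker := by
    rw [Subgroup.zpowers_le]
    exact hzρ
  have h6 : Subgroup.zpowers z = ρ.ker := Subgroup.eq_of_le_of_card_ge h5 (by rw [h3, h4])
  intro c hc
  have h7 : c ∈ Subgroup.zpowers z := by
    rw [h6]
    exact hc
  obtain ⟨k, rfl⟩ := h7
  rcases Int.even_or_odd' k with ⟨j, rfl | rfl⟩
  · left
    show z ^ (2 * j) = 1
    rw [zpow_mul]
    have : z ^ (2 : ℤ) = 1 := by exact_mod_cast hz2
    rw [this, one_zpow]
  · right
    show z ^ (2 * j + 1) = z
    rw [zpow_add, zpow_mul, zpow_one]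
    have : z ^ (2 : ℤ) = 1 := by exact_mod_cast hz2
    rw [this, one_zpow, one_mul]

/-- The transport of the recognition along an isomorphism of the ambient groups. -/
theorem cover_transport {G G' Q : Type*} [Group G] [Group G'] [Group Q] [Finite G'] [IsSimpleGroup Q]
    (hp : ¬ (Nat.card Q).Prime) (e : G ≃* G') (t : G) (t' : G') (he : e t = t') (ht1 : t' ≠ 1) (ht2 : t' ^ 2 = 1)
    (ρ : Subgroup.centralizer ({t'} : Set G') →* Q) (hρ : Function.Surjective ρ)
    (hzρ : ρ ⟨t', Subgroup.mem_centralizer_singleton_iff.2 rfl⟩ = 1)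
    (hcard : Nat.card (Subgroup.centralizer ({t'} : Set G')) = 2 * Nat.card Q)
    (hL : ∀ L : Subgroup (Subgroup.centralizer ({t'} : Set G')), L.index = 2 → False) :
    IsNonsplitDoubleCover (Subgroup.centralizer ({t} : Set G)) Q := by
  subst he
  let φ := centEquiv e t
  haveI : Finite G := Finite.of_injective e e.injective
  let z : Subgroup.centralizer ({t} : Set G) := ⟨t, Subgroup.mem_centralizer_singleton_iff.2 rfl⟩
  have hzc : z ∈ Subgroup.center (Subgroup.centralizer ({t} : Set G)) := by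
    rw [Subgroup.mem_center_iff]
    rintro ⟨y, hy⟩
    apply Subtype.ext
    exact Subgroup.mem_centralizer_singleton_iff.1 hy
  have ht1' : t ≠ 1 := by
    intro h
    apply ht1
    rw [h, map_one]
  have hz1 : z ≠ 1 := fun h => ht1' (congrArg Subtype.val h)
  have hz2 : z ^ 2 = 1 := by
    apply Subtype.ext
    show t ^ 2 = 1
    apply e.injective
    rw [map_pow, ht2, map_one]
  refine nonsplit_of_hom hp z hzc hz1 hz2 (ρ.comp φ.toMonoidHom) ?_ ?_ ?_ ?_
  · intro a
    obtain ⟨c, hc⟩ := hρ a
    exact ⟨φ.symm c, by simp [hc]⟩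
  · exact hzρ
  · rw [← hcard]
    exact Nat.card_congr φ.toEquiv
  · intro L _ hi
    refine hL (L.comap φ.symm.toMonoidHom) ?_
    rw [Subgroup.index_comap_of_surjective _ φ.symm.surjective, hi]

end Cfsg.Agent.Lib.Compute.McLInv.Abs
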