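import Mathlib
import Cfsg.Agent.Lib.Compute.OutFinal

/-!
# Kernel checks with words in permutation generators

Conjugates of a permutation given by words, the evaluation of the signatures of these on some points,
and the consequences: a lower bound for the number of conjugates; the elements of a group given by
a list of words, and the conjugates among these.
-/

set_option autoImplicit false

namespace Cfsg.Agent.Lib.Compute.McLInv.Tools

open Cfsg.Agent.Lib.Compute.PermCert Cfsg.Agent.Lib.Compute.OutChain Cfsg.Agent.Lib.Compute.OutFinal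
open Cfsg.Agent.Lib.Compute.ToddCoxeterCore (frc frc_eq)

local notation "bB(" b ", " t ", " e ")" => Bool.rec (motive := fun _ => Bool) e t b

variable {w m N : Nat}

/-- The inverse of a letter, on points. -/
def letterI (w m : Nat) (gens : List Elt) (c i : Nat) : Nat :=
  match nth gens (Nat.div c 2) with
  | none => i
  | some e => bif Nat.beq (Nat.mod c 2) 0 then get w m e.g i else get w m e.f i

theorem letterI_eq {gens : List Elt} (hg : gens.all (validB w m N) = true) (c : Nat) (i : Fin N) :
    letterI w m gens c i = (((letterPerm w m N gens c)⁻¹ : Equiv.Perm (Fin N)) i : Nat) := by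
  unfold letterI letterPerm
  cases hnth : nth gens (Nat.div c 2) with
  | none => simp
  | some e =>
    have hv : validB w m N e = true := by
      rw [List.all_eq_true] at hg
      exact hg e (nth_mem hnth)
    cases hc : Nat.beq (Nat.mod c 2) 0 with
    | true => simpa using (permOf_symm_apply hv i).symm
    | false => simp [permOf_apply hv]

/-- The inverse of a word, on points. -/
noncomputable def invF (w m : Nat) (gens : List Elt) (u : List Nat) : Nat → Nat :=
  List.rec (motive := fun _ => Nat → Nat) (fun i => i) (fun c _ ih i => frc (letterI w m gens c i) ih) u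

theorem invF_eq {gens : List Elt} (hg : gens.all (validB w m N) = true) (u : List Nat) (i : Fin N) :
    invF w m gens u i = (((wordPerm w m N gens u)⁻¹ : Equiv.Perm (Fin N)) i : Nat) := by
  induction u generalizing i with
  | nil => simp [invF, wordPerm]
  | cons c cs ih =>
    have h1 : invF w m gens (c :: cs) i = frc (letterI w m gens c i) (invF w m gens cs) := rfl
    rw [h1, frc_eq, letterI_eq hg c i, ih ((letterPerm w m N gens c)⁻¹ i)]
    simp [wordPerm, mul_inv_rev, Equiv.Perm.mul_apply]

theorem wordF_perm {gens : List Elt} (hg : gens.all (validB w m N) = true) (u : List Nat) (i : Fin N) :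
    wordF w m gens u i = (wordPerm w m N gens u i : Nat) := by
  rw [wordF_eq, wordFn_eq hg]

/-- The conjugate of `T` by a word, on points. -/
noncomputable def yF (w m : Nat) (T : Elt) (gens : List Elt) (u : List Nat) (b : Nat) : Nat :=
  frc (invF w m gens u b) fun a => frc (get w m T.f a) (wordF w m gens u)

theorem yF_eq {T : Elt} {gens : List Elt} (hT : validB w m N T = true)
    (hg : gens.all (validB w m N) = true) (u : List Nat) (i : Fin N) :
    yF w m T gens u i =
      ((wordPerm w m N gens u * permOf w m N T * (wordPerm w m N gens u)⁻¹ : Equiv.Perm (Fin N)) i : Nat) := by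
  simp only [yF, frc_eq]
  rw [invF_eq hg u i, ← permOf_apply hT, wordF_perm hg]
  rfl

/-- A word from its code, at most `f` letters, four bits each. -/
noncomputable def decW (f : Nat) : Nat → List Nat :=
  Nat.rec (motive := fun _ => Nat → List Nat) (fun _ => [])
    (fun _ ih v => Bool.rec (motive := fun _ => List Nat)
      (Nat.pred (Nat.land v 15) :: ih (Nat.shiftRight v 4)) [] (Nat.beq (Nat.land v 15) 0)) f

/-- A signature of a function: its values on a list of points. -/
noncomputable def sigF (f : Nat → Nat) (bs : List Nat) : Nat :=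
  List.rec (motive := fun _ => Nat) 0 (fun b _ ih => Nat.add (f b) (Nat.mul 512 ih)) bs

theorem sigF_congr {f f' : Nat → Nat} {bs : List Nat} (h : ∀ b ∈ bs, f b = f' b) : sigF f bs = sigF f' bs := by
  induction bs with
  | nil => rfl
  | cons b bs ih =>
    have h1 : ∀ g : Nat → Nat, sigF g (b :: bs) = Nat.add (g b) (Nat.mul 512 (sigF g bs)) := fun _ => rfl
    rw [h1, h1, h b (List.mem_cons_self), ih (fun x hx => h x (List.mem_cons_of_mem _ hx))]

/-- A sorted table of `n` keys: each consists of a signature of the function given by the low bits. -/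
noncomputable def chkKeys (F : Nat → Nat → Nat) (bs : List Nat) (kw km lw lm n d key : Nat) : Bool :=
  allN (fun i => frc (get kw km key i) fun k =>
      bB(Nat.beq (sigF (F (Nat.land k lm)) bs) (Nat.shiftRight k lw),
        bB(Nat.ble n (Nat.succ i), true,
          Nat.blt (Nat.shiftRight k lw) (Nat.shiftRight (get kw km key (Nat.succ i)) lw)), false)) n d

theorem keys_spec {F : Nat → Nat → Nat} {bs : List Nat} {kw km lw lm n d key : Nat} (hd : n ≤ 2 ^ d)
    (hb : ∀ b ∈ bs, b < N) (Y : Nat → Equiv.Perm (Fin N)) (hY : ∀ (c : Nat) (i : Fin N), F c i = Y c i)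
    (h : chkKeys F bs kw km lw lm n d key = true) :
    Function.Injective fun i : Fin n => Y (Nat.land (get kw km key i) lm) := by
  rw [chkKeys, allN_eq _ hd, allB_iff] at h
  simp only [frc_eq, bB_eq] at h
  have hsig : ∀ i, i < n → sigF (F (Nat.land (get kw km key i) lm)) bs = Nat.shiftRight (get kw km key i) lw := by
    intro i hi
    have h1 := h i hi
    cases h2 : Nat.beq (sigF (F (Nat.land (get kw km key i) lm)) bs) (Nat.shiftRight (get kw km key i) lw) with
    | false => rw [h2] at h1; simp at h1
    | true => exact Nat.eq_of_beq_eq_true h2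
  have hlt : ∀ i, i + 1 < n → Nat.shiftRight (get kw km key i) lw < Nat.shiftRight (get kw km key (i + 1)) lw := by
    intro i hi
    have h1 := h i (by omega)
    have h3 : Nat.ble n (Nat.succ i) = false := by
      cases h4 : Nat.ble n (Nat.succ i) with
      | false => rfl
      | true =>
        have := Nat.le_of_ble_eq_true h4
        omega
    rw [h3] at h1
    cases h2 : Nat.beq (sigF (F (Nat.land (get kw km key i) lm)) bs) (Nat.shiftRight (get kw km key i) lw) with
    | false => rw [h2] at h1; simp at h1
    | true =>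
      rw [h2] at h1
      simpa using h1
  have hmono : ∀ j, j < n → ∀ i, i < j → Nat.shiftRight (get kw km key i) lw < Nat.shiftRight (get kw km key j) lw := by
    intro j
    induction j with
    | zero => intro _ i hi; omega
    | succ j ih =>
      intro hj i hi
      have h5 := hlt j hj
      rcases Nat.lt_succ_iff_lt_or_eq.mp hi with h6 | h6
      · exact lt_trans (ih (by omega) i h6) h5
      · rw [h6]; exact h5
  have hsame : ∀ i j : Fin n, Y (Nat.land (get kw km key i) lm) = Y (Nat.land (get kw km key j) lm) →
      Nat.shiftRight (get kw km key i) lw = Nat.shiftRight (get kw km key j) lw := by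
    intro i j hij
    rw [← hsig i i.2, ← hsig j j.2]
    refine sigF_congr fun b hbb => ?_
    have h7 := hY (Nat.land (get kw km key i) lm) ⟨b, hb b hbb⟩
    have h8 := hY (Nat.land (get kw km key j) lm) ⟨b, hb b hbb⟩
    rw [hij] at h7
    exact h7.trans h8.symm
  intro i j hij
  have h9 := hsame i j hij
  apply Fin.ext
  rcases Nat.lt_trichotomy i.1 j.1 with h10 | h10 | h10
  · have := hmono j j.2 i h10
    omega
  · exact h10
  · have := hmono i i.2 j h10
    omega

/-! ### A group given by a list of words -/

/-- The word of an element: the letters of the bits, the highest first. -/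
noncomputable def wE (f e : Nat) : List Nat :=
  Nat.rec (motive := fun _ => List Nat) []
    (fun j ih => Bool.rec (motive := fun _ => List Nat) ih (Nat.mul 2 j :: ih)
      (Nat.beq (Nat.land (Nat.shiftRight e j) 1) 1)) f

/-- The table of the left multiplication of the elements by the generators. -/
noncomputable def chkMul (w m : Nat) (pg : List Elt) (bs : List Nat) (f r tw tm tab : Nat) : Bool :=
  allN (fun j => allN (fun e => frc (get tw tm tab (Nat.add (Nat.mul j r) e)) fun e' =>
    bB(Nat.blt e' r, bs.all fun b =>
      Nat.beq (letterFn w m pg (Nat.mul 2 j) (wordF w m pg (wE f e) b)) (wordF w m pg (wE f e') b), false)) r f)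
    pg.length pg.length

theorem nth_of_mem {α : Type} {l : List α} {a : α} (h : a ∈ l) : ∃ k, k < l.length ∧ nth l k = some a := by
  induction l with
  | nil => cases h
  | cons b t ih =>
    rcases List.mem_cons.1 h with rfl | h
    · exact ⟨0, by simp, rfl⟩
    · obtain ⟨k, hk, hn⟩ := ih h
      exact ⟨k + 1, by simpa using hk, hn⟩

theorem letter_of_mem {pg : List Elt} {e : Elt} (he : e ∈ pg) :
    ∃ k, k < pg.length ∧ letterPerm w m N pg (Nat.mul 2 k) = permOf w m N e := by
  obtain ⟨k, hk, hn⟩ := nth_of_mem he
  refine ⟨k, hk, ?_⟩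
  have h1 : Nat.div (Nat.mul 2 k) 2 = k := by
    show 2 * k / 2 = k
    omega
  have h2 : Nat.beq (Nat.mod (Nat.mul 2 k) 2) 0 = true := by
    have : Nat.mod (Nat.mul 2 k) 2 = 0 := by
      show 2 * k % 2 = 0
      omega
    rw [this]
    rfl
  unfold letterPerm
  rw [h1, hn]
  simp only [h2, cond_true]

section Chain

variable {tw tm : Nat} {K : Subgroup (Equiv.Perm (Fin N))} {ls : List Lv}

/-- The elements of the group generated by `pg` are among the elements given by the words. -/
theorem mem_words (hC : ChainFor w m N tw tm K ls) {pg : List Elt} (hpg : pg.all (validB w m N) = true)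
    (hle : genGroup w m N pg ≤ K) {f r tb tbm tab : Nat} (hr : r ≤ 2 ^ f) (hp : pg.length ≤ 2 ^ pg.length)
    (h0 : wE f 0 = []) (hr0 : 0 < r)
    (h : chkMul w m pg (baseL ls) f r tb tbm tab = true) :
    ∀ g ∈ genGroup w m N pg, ∃ e, e < r ∧ g = wordPerm w m N pg (wE f e) := by
  classical
  rw [chkMul, allN_eq _ hp, allB_iff] at h
  have hstep : ∀ j, j < pg.length → ∀ e, e < r →
      ∃ e', e' < r ∧ letterPerm w m N pg (Nat.mul 2 j) * wordPerm w m N pg (wE f e) = wordPerm w m N pg (wE f e') := by
    intro j hj e he
    have h1 := h j hj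
    rw [allN_eq _ hr, allB_iff] at h1
    have h2 := h1 e he
    simp only [frc_eq, bB_eq] at h2
    set e' := get tb tbm tab (Nat.add (Nat.mul j r) e) with he'
    cases h3 : Nat.blt e' r with
    | false => rw [h3] at h2; simp at h2
    | true =>
      rw [h3] at h2
      simp only [cond_true, List.all_eq_true] at h2
      refine ⟨e', by simpa using h3, ?_⟩
      refine hC.eq_of_base (K.mul_mem (hle (letterPerm_mem pg _)) (hle (wordPerm_mem pg _)))
        (hle (wordPerm_mem pg _)) (fun b hb hlt => ?_)
      have h4 := Nat.eq_of_beq_eq_true (h2 b hb)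
      apply Fin.ext
      rw [wordF_perm hpg _ ⟨b, hlt⟩, wordF_perm hpg _ ⟨b, hlt⟩] at h4
      rw [letterFn_eq hpg] at h4
      exact h4
  let T : List (Equiv.Perm (Fin N)) := (List.range r).map fun e => wordPerm w m N pg (wE f e)
  have hT1 : (1 : Equiv.Perm (Fin N)) ∈ T := by
    refine List.mem_map.2 ⟨0, List.mem_range.2 hr0, ?_⟩
    rw [h0]
    rfl
  have hgen := core_generates (G := Equiv.Perm (Fin N)) (K := ⊥) (H := genGroup w m N pg)
    (S := {x | ∃ e ∈ pg, permOf w m N e = x}) rfl T hT1 (by
      rintro s ⟨e0, he0, rfl⟩ u hu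
      obtain ⟨j, hj, hjl⟩ := letter_of_mem (w := w) (m := m) (N := N) he0
      obtain ⟨e, he, rfl⟩ := List.mem_map.1 hu
      obtain ⟨e', he', hh⟩ := hstep j hj e (List.mem_range.1 he)
      refine ⟨wordPerm w m N pg (wE f e'), List.mem_map.2 ⟨e', List.mem_range.2 he', rfl⟩, ?_⟩
      rw [← hjl, hh, inv_mul_cancel]
      exact Subgroup.one_mem _)
  intro g hg
  obtain ⟨u, hu, huk⟩ := hgen g hg
  obtain ⟨e, he, rfl⟩ := List.mem_map.1 hu
  refine ⟨e, List.mem_range.1 he, ?_⟩
  have h5 := Subgroup.mem_bot.1 huk
  exact (eq_of_inv_mul_eq_one h5).symm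

/-- The order of the group generated by `pg`, from the words and a table of signatures. -/
theorem card_words (hC : ChainFor w m N tw tm K ls) {pg : List Elt} (hpg : pg.all (validB w m N) = true)
    (hle : genGroup w m N pg ≤ K) {f r tb tbm tab kw km lw lm d key : Nat} (hr : r ≤ 2 ^ f)
    (hp : pg.length ≤ 2 ^ pg.length) (h0 : wE f 0 = []) (hr0 : 0 < r) (hrd : r ≤ 2 ^ d)
    (h : chkMul w m pg (baseL ls) f r tb tbm tab = true)
    (hk : chkKeys (fun c => wordF w m pg (wE f c)) (baseL ls) kw km lw lm r d key = true) :
    Nat.card (genGroup w m N pg) = r := by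
  classical
  apply le_antisymm
  · have hm := mem_words hC hpg hle hr hp h0 hr0 h
    choose! φ hφ1 hφ2 using hm
    have hinj : Function.Injective (fun g : genGroup w m N pg => (⟨φ g.1, hφ1 g.1 g.2⟩ : Fin r)) := by
      rintro ⟨g, hg⟩ ⟨g', hg'⟩ hh
      have h1 : φ g = φ g' := congrArg Fin.val hh
      apply Subtype.ext
      show g = g'
      rw [hφ2 g hg, hφ2 g' hg', h1]
    have := Nat.card_le_card_of_injective _ hinj
    simpa using this
  · have hinj := keys_spec (N := N) hrd hC.base_lt (fun c => wordPerm w m N pg (wE f c))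
      (fun c i => wordF_perm hpg (wE f c) i) hk
    have hinj2 : Function.Injective (fun i : Fin r =>
        (⟨wordPerm w m N pg (wE f (Nat.land (get kw km key i) lm)), wordPerm_mem pg _⟩ : genGroup w m N pg)) := by
      intro i j hh
      exact hinj (congrArg Subtype.val hh)
    have := Nat.card_le_card_of_injective _ hinj2
    simpa using this

/-- The table of the conjugating words of the involutions among the elements given by words. -/
noncomputable def chkInv (w m : Nat) (T : Elt) (gens pg : List Elt) (bs : List Nat) (f r cw cm ctab : Nat) : Bool :=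
  allN (fun e => bB(Nat.beq e 0, true,
    bB(bs.any fun b => !(Nat.beq (wordF w m pg (wE f e) (wordF w m pg (wE f e) b)) b), true,
      frc (get cw cm ctab e) fun c =>
        bs.all fun b => Nat.beq (yF w m T gens (decW 7 c) b) (wordF w m pg (wE f e) b)))) r f

theorem inv_conj (hC : ChainFor w m N tw tm K ls) {T : Elt} {gens pg : List Elt} (hT : validB w m N T = true)
    (hTK : permOf w m N T ∈ K) (hg : gens.all (validB w m N) = true) (hgK : genGroup w m N gens ≤ K)
    (hpg : pg.all (validB w m N) = true) (hle : genGroup w m N pg ≤ K) {f r cw cm ctab : Nat}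
    (hr : r ≤ 2 ^ f) (h0 : wE f 0 = [])
    (h : chkInv w m T gens pg (baseL ls) f r cw cm ctab = true) {e : Nat} (he : e < r)
    (h2 : wordPerm w m N pg (wE f e) ^ 2 = 1) (h1 : wordPerm w m N pg (wE f e) ≠ 1) :
    ∃ x ∈ K, x * permOf w m N T * x⁻¹ = wordPerm w m N pg (wE f e) := by
  rw [chkInv, allN_eq _ hr, allB_iff] at h
  have h3 := h e he
  simp only [frc_eq, bB_eq] at h3
  have he0 : Nat.beq e 0 = false := by
    cases h4 : Nat.beq e 0 with
    | false => rfl
    | true =>
      have h5 : e = 0 := Nat.eq_of_beq_eq_true h4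
      exfalso
      apply h1
      rw [h5, h0]
      rfl
  rw [he0] at h3
  have hany : (baseL ls).any (fun b => !(Nat.beq (wordF w m pg (wE f e) (wordF w m pg (wE f e) b)) b)) = false := by
    rw [List.any_eq_false]
    intro b hb hh
    have hlt := hC.base_lt b hb
    have h6 : wordF w m pg (wE f e) (wordF w m pg (wE f e) b) = b := by
      rw [wordF_perm hpg _ ⟨b, hlt⟩, wordF_perm hpg _ (wordPerm w m N pg (wE f e) ⟨b, hlt⟩)]
      rw [← Equiv.Perm.mul_apply, ← pow_two, h2]
      rfl
    rw [h6] at hh
    simp at hh
  rw [hany] at h3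
  simp only [cond_false, List.all_eq_true] at h3
  set u := decW 7 (get cw cm ctab e) with hu
  refine ⟨wordPerm w m N gens u, hgK (wordPerm_mem gens u), ?_⟩
  refine hC.eq_of_base (K.mul_mem (K.mul_mem (hgK (wordPerm_mem gens u)) hTK) (K.inv_mem (hgK (wordPerm_mem gens u))))
    (hle (wordPerm_mem pg _)) (fun b hb hlt => ?_)
  have h7 := Nat.eq_of_beq_eq_true (h3 b hb)
  apply Fin.ext
  rw [yF_eq hT hg u ⟨b, hlt⟩, wordF_perm hpg _ ⟨b, hlt⟩] at h7
  exact h7

end Chain

end Cfsg.Agent.Lib.Compute.McLInv.Tools
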