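import Mathlib
import Cfsg.Agent.Lib.Compute.McLInv.Data
import Cfsg.Agent.Lib.Compute.McLInv.Tools
import Cfsg.Agent.Lib.Sporadic.McLOut.Data

/-! The kernel checks for the involutions of the McLaughlin group. -/

set_option autoImplicit false
set_option maxRecDepth 100000

namespace Cfsg.Agent.Lib.Compute.McLInv.Check

open Cfsg.Agent.Lib.Compute.PermCert Cfsg.Agent.Lib.Compute.OutChain Cfsg.Agent.Lib.Compute.OutFinal
open Cfsg.Agent.Lib.Compute.McLInv.Data Cfsg.Agent.Lib.Compute.McLInv.Tools
open Cfsg.Agent.Lib.Sporadic.McLOut.Data (eG0 eG1 eG2 eG3 lrlvA)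

/-- The generators of the group. -/
abbrev gK : List Elt := [eG0, eG1, eG2, eG3]

/-- The chain. -/
noncomputable abbrev lsK : List Lv := lrlvA.map Prod.fst

local notation "W" => (9 : Nat)
local notation "M" => (511 : Nat)
local notation "NN" => (275 : Nat)
local notation "TW" => (21 : Nat)
local notation "TM" => (2097151 : Nat)
local notation "DD" => (9 : Nat)

set_option Elab.async false

theorem vT : validB W M NN tE = true := by decide +kernel
theorem vX : validB W M NN xE = true := by decide +kernel
theorem vG0 : validB W M NN gE0 = true := by decide +kernel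
theorem vG1 : validB W M NN gE1 = true := by decide +kernel
theorem vG2 : validB W M NN gE2 = true := by decide +kernel
theorem vG3 : validB W M NN gE3 = true := by decide +kernel
theorem vG4 : validB W M NN gE4 = true := by decide +kernel
theorem vG5 : validB W M NN gE5 = true := by decide +kernel
theorem vP : pGens.all (validB W M NN) = true := by decide +kernel
theorem vK : gK.all (validB W M NN) = true := by decide +kernel

theorem siftT : siftF W M NN TW TM DD lsK (gt W M tE) = true := by decide +kernel
theorem siftX : siftF W M NN TW TM DD lsK (gt W M xE) = true := by decide +kernel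
theorem siftG0 : siftF W M NN TW TM DD lsK (gt W M gE0) = true := by decide +kernel
theorem siftG1 : siftF W M NN TW TM DD lsK (gt W M gE1) = true := by decide +kernel
theorem siftG2 : siftF W M NN TW TM DD lsK (gt W M gE2) = true := by decide +kernel
theorem siftG3 : siftF W M NN TW TM DD lsK (gt W M gE3) = true := by decide +kernel
theorem siftG4 : siftF W M NN TW TM DD lsK (gt W M gE4) = true := by decide +kernel
theorem siftG5 : siftF W M NN TW TM DD lsK (gt W M gE5) = true := by decide +kernel
theorem siftP0 : siftF W M NN TW TM DD lsK (gt W M pE0) = true := by decide +kernel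
theorem siftP1 : siftF W M NN TW TM DD lsK (gt W M pE1) = true := by decide +kernel
theorem siftP2 : siftF W M NN TW TM DD lsK (gt W M pE2) = true := by decide +kernel
theorem siftP3 : siftF W M NN TW TM DD lsK (gt W M pE3) = true := by decide +kernel
theorem siftP4 : siftF W M NN TW TM DD lsK (gt W M pE4) = true := by decide +kernel
theorem siftP5 : siftF W M NN TW TM DD lsK (gt W M pE5) = true := by decide +kernel
theorem siftP6 : siftF W M NN TW TM DD lsK (gt W M pE6) = true := by decide +kernel

theorem orb_ok : chkKeys (fun c => yF W M tE gK (decW 7 c)) (baseL lsK) 73 9444732965739290427391 28 268435455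
    22275 15 orbK = true := by decide +kernel
theorem mul_ok : chkMul W M pGens (baseL lsK) 7 128 7 127 mTab = true := by decide +kernel
theorem keyP_ok : chkKeys (fun c => wordF W M pGens (wE 7 c)) (baseL lsK) 52 4503599627370495 7 127 128 7 pKey = true := by
  decide +kernel
theorem inv_ok : chkInv W M tE gK pGens (baseL lsK) 7 128 28 268435455 cTab = true := by decide +kernel
theorem w0 : wE 7 0 = [] := by decide +kernel

end Cfsg.Agent.Lib.Compute.McLInv.Check
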