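import Mathlib
import Cfsg.Agent.Lib.Compute.McLInv.Abs
import Cfsg.Agent.Lib.Compute.McLInv.Check

/-! The kernel checks for the centralizer of the involution of the McLaughlin group. -/

set_option autoImplicit false
set_option maxRecDepth 100000

namespace Cfsg.Agent.Lib.Compute.McLInv.Check2

open Cfsg.Agent.Lib.Compute.PermCert Cfsg.Agent.Lib.Compute.OutChain Cfsg.Agent.Lib.Compute.OutFinal
open Cfsg.Agent.Lib.Compute.McLInv.Data Cfsg.Agent.Lib.Compute.McLInv.Tools
open Cfsg.Agent.Lib.Compute.McLInv.Abs (xx)

local notation "bB(" b ", " t ", " e ")" => Bool.rec (motive := fun _ => Bool) e t b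
local notation "W" => (9 : Nat)
local notation "M" => (511 : Nat)
local notation "NN" => (275 : Nat)
local notation "DD" => (9 : Nat)

/-- Two letters are in the same part of the partition of a point. -/
def rN (q i j : Nat) : Bool :=
  Nat.beq (Nat.land (Nat.shiftRight (get 8 255 maskT q) i) 1) (Nat.land (Nat.shiftRight (get 8 255 maskT q) j) 1)

/-- The action of a lift of a three-cycle on the partitions. -/
noncomputable def chkPr (G : Elt) (i : Fin 8) : Bool :=
  allN (fun p => bB(Nat.beq (gt W M tE p) p,
    decide (∀ a b : Fin 8, rN (gt W M G p) (xx (0 : Fin 8) 1 i a) (xx (0 : Fin 8) 1 i b) = rN p a b), true)) NN DD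

set_option Elab.async false

theorem pr2 : chkPr gE0 2 = true := by decide +kernel
theorem pr3 : chkPr gE1 3 = true := by decide +kernel
theorem pr4 : chkPr gE2 4 = true := by decide +kernel
theorem pr5 : chkPr gE3 5 = true := by decide +kernel
theorem pr6 : chkPr gE4 6 = true := by decide +kernel
theorem pr7 : chkPr gE5 7 = true := by decide +kernel

theorem pairs : ∀ i j k l : Fin 8, i ≠ j → k ≠ l →
    (fixL.all fun p => (rN p i j == rN p k l)) = true → (i = k ∧ j = l) ∨ (i = l ∧ j = k) := by
  decide +kernel

theorem fixOK : fixL.all (fun p => bB(Nat.blt p NN, Nat.beq (gt W M tE p) p, false)) = true := by decide +kernel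

theorem comm0 : allN (fun i => Nat.beq (gt W M gE0 (gt W M tE i)) (gt W M tE (gt W M gE0 i))) NN DD = true := by decide +kernel
theorem comm1 : allN (fun i => Nat.beq (gt W M gE1 (gt W M tE i)) (gt W M tE (gt W M gE1 i))) NN DD = true := by decide +kernel
theorem comm2 : allN (fun i => Nat.beq (gt W M gE2 (gt W M tE i)) (gt W M tE (gt W M gE2 i))) NN DD = true := by decide +kernel
theorem comm3 : allN (fun i => Nat.beq (gt W M gE3 (gt W M tE i)) (gt W M tE (gt W M gE3 i))) NN DD = true := by decide +kernel
theorem comm4 : allN (fun i => Nat.beq (gt W M gE4 (gt W M tE i)) (gt W M tE (gt W M gE4 i))) NN DD = true := by decide +kernel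
theorem comm5 : allN (fun i => Nat.beq (gt W M gE5 (gt W M tE i)) (gt W M tE (gt W M gE5 i))) NN DD = true := by decide +kernel

theorem cube0 : allN (fun i => Nat.beq (iterF (gt W M gE0) 3 i) i) NN DD = true := by decide +kernel
theorem cube1 : allN (fun i => Nat.beq (iterF (gt W M gE1) 3 i) i) NN DD = true := by decide +kernel
theorem cube2 : allN (fun i => Nat.beq (iterF (gt W M gE2) 3 i) i) NN DD = true := by decide +kernel
theorem cube3 : allN (fun i => Nat.beq (iterF (gt W M gE3) 3 i) i) NN DD = true := by decide +kernel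
theorem cube4 : allN (fun i => Nat.beq (iterF (gt W M gE4) 3 i) i) NN DD = true := by decide +kernel
theorem cube5 : allN (fun i => Nat.beq (iterF (gt W M gE5) 3 i) i) NN DD = true := by decide +kernel

theorem sqT : allN (fun i => Nat.beq (iterF (gt W M tE) 2 i) i) NN DD = true := by decide +kernel
theorem sqX : allN (fun i => Nat.beq (gt W M xE (gt W M xE i)) (gt W M tE i)) NN DD = true := by decide +kernel
theorem t0 : Nat.beq (gt W M tE 0) 0 = false := by decide +kernel

end Cfsg.Agent.Lib.Compute.McLInv.Check2
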