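import Mathlib
import Cfsg.Agent.Lib.Compute.McLInv.Check2
import Cfsg.Agent.Lib.Sporadic.McLOut.Main

/-! The involutions of the McLaughlin group and their centralizers. -/

set_option autoImplicit false
set_option maxRecDepth 100000

namespace Cfsg.Agent.Lib.Compute.McLInv.Main

open Cfsg Equiv Equiv.Perm
open Cfsg.Agent.Lib.Compute.PermCert Cfsg.Agent.Lib.Compute.OutChain Cfsg.Agent.Lib.Compute.OutFinal
open Cfsg.Agent.Lib.Compute.McLInv.Data Cfsg.Agent.Lib.Compute.McLInv.Tools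
open Cfsg.Agent.Lib.Compute.McLInv.Abs Cfsg.Agent.Lib.Compute.McLInv.Check Cfsg.Agent.Lib.Compute.McLInv.Check2
open Cfsg.Agent.Lib.Sporadic.McLOut.Main (K hA card_K hRep)
open Cfsg.Agent.Lib.Sporadic.McLOut.Data (lrlvA)

local notation "W" => (9 : Nat)
local notation "M" => (511 : Nat)
local notation "NN" => (275 : Nat)

theorem hd : 275 ≤ 2 ^ 9 := by norm_num

/-- The involution. -/
noncomputable abbrev tP : Perm (Fin 275) := permOf W M NN tE

theorem tK : tP ∈ K := hA.mem_of_sift hd (gt_eq vT) siftT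

theorem t_sq : tP ^ 2 = 1 := pow_of_check vT hd sqT

theorem t_ne : tP ≠ 1 := ne_one_of_point vT (i := 0) (by norm_num) t0

/-- The involution, in the group. -/
noncomputable abbrev tK' : K := ⟨tP, tK⟩

/-- The centralizer. -/
noncomputable abbrev CC : Subgroup K := Subgroup.centralizer ({tK'} : Set K)

theorem comm_of_C (c : CC) : c.1.1 * tP = tP * c.1.1 :=
  congrArg Subtype.val (Subgroup.mem_centralizer_singleton_iff.1 c.2 : c.1 * tK' = tK' * c.1)

theorem fix_of_C (c : CC) {p : Fin 275} (hp : tP p = p) : tP (c.1.1 p) = c.1.1 p := by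
  have h := congrArg (fun g : Perm (Fin 275) => g p) (comm_of_C c)
  simp only [Perm.mul_apply, hp] at h
  exact h.symm

/-- The compatibility of an element with a permutation of the eight letters. -/
def PrP (c : Perm (Fin 275)) (a : Perm (Fin 8)) : Prop :=
  ∀ p : Fin 275, tP p = p → ∀ i j : Fin 8, rN (c p) (a i) (a j) = rN p i j

theorem pr_one : PrP 1 1 := fun _ _ _ _ => rfl

theorem pr_mul {c d : CC} {a b : Perm (Fin 8)} (h1 : PrP c.1.1 a) (h2 : PrP d.1.1 b) :
    PrP (c * d).1.1 (a * b) := by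
  intro p hp i j
  have h3 := h1 (d.1.1 p) (fix_of_C d hp) (b i) (b j)
  have h4 := h2 p hp i j
  exact h3.trans h4

theorem pr_inv {c : CC} {a : Perm (Fin 8)} (h1 : PrP c.1.1 a) : PrP (c⁻¹).1.1 a⁻¹ := by
  intro p hp i j
  have h2 := fix_of_C c⁻¹ hp
  have h3 := h1 ((c⁻¹).1.1 p) h2 (a⁻¹ i) (a⁻¹ j)
  have h4 : c.1.1 ((c⁻¹).1.1 p) = p := by
    show c.1.1 ((c.1.1)⁻¹ p) = p
    simp
  have h5 : ∀ x : Fin 8, a (a⁻¹ x) = x := fun x => by simp
  rw [h4, h5, h5] at h3
  exact h3.symm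

/-- Fixed points. -/
theorem fix_mem {p : Nat} (hp : p ∈ fixL) : ∃ h : p < 275, tP ⟨p, h⟩ = ⟨p, h⟩ := by
  have h1 := List.all_eq_true.1 fixOK p hp
  cases h2 : Nat.blt p NN with
  | false => rw [h2] at h1; simp at h1
  | true =>
    rw [h2] at h1
    have hlt : p < 275 := by simpa using h2
    refine ⟨hlt, Fin.ext ?_⟩
    have h3 : Nat.beq (gt W M tE p) p = true := h1
    have h4 := gt_eq vT ⟨p, hlt⟩
    show ((tP ⟨p, hlt⟩ : Fin 275) : Nat) = p
    rw [← h4]
    exact Nat.eq_of_beq_eq_true h3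

theorem pr_one_eq {a : Perm (Fin 8)} (h : PrP 1 a) : a = 1 := by
  have key : ∀ i j : Fin 8, i ≠ j → (a i = i ∧ a j = j) ∨ (a i = j ∧ a j = i) := by
    intro i j hij
    refine pairs (a i) (a j) i j (fun h' => hij (a.injective h')) hij ?_
    rw [List.all_eq_true]
    intro p hp
    obtain ⟨hlt, hfix⟩ := fix_mem hp
    have h1 := h ⟨p, hlt⟩ hfix i j
    have h2 : rN p (a i) (a j) = rN p i j := h1
    rw [h2]
    simp
  have h3 : ∀ i : Fin 8, i + 1 ≠ i ∧ i + 2 ≠ i ∧ i + 1 ≠ i + 2 := by decide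
  ext i
  obtain ⟨h4, h5, h6⟩ := h3 i
  have h7 : a i = i := by
    rcases key i (i + 1) h4.symm with h8 | h8
    · exact h8.1
    · rcases key i (i + 2) h5.symm with h9 | h9
      · exact h9.1
      · exact absurd (h8.1.symm.trans h9.1) h6
  rw [h7]
  rfl

/-- The lifts of the three-cycles. -/
structure GOK (e : Elt) (i : Fin 8) : Prop where
  v : validB W M NN e = true
  s : siftF W M NN 21 2097151 9 lsK (gt W M e) = true
  c : allN (fun x => Nat.beq (gt W M e (gt W M tE x)) (gt W M tE (gt W M e x))) NN 9 = true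
  q : allN (fun x => Nat.beq (iterF (gt W M e) 3 x) x) NN 9 = true
  p : chkPr e i = true

theorem gok (i : Idx (0 : Fin 8) 1) : ∃ e, GOK e i.1 := by
  obtain ⟨i, h0, h1⟩ := i
  fin_cases i
  · exact absurd rfl h0
  · exact absurd rfl h1
  · exact ⟨gE0, vG0, siftG0, comm0, cube0, pr2⟩
  · exact ⟨gE1, vG1, siftG1, comm1, cube1, pr3⟩
  · exact ⟨gE2, vG2, siftG2, comm2, cube2, pr4⟩
  · exact ⟨gE3, vG3, siftG3, comm3, cube3, pr5⟩
  · exact ⟨gE4, vG4, siftG4, comm4, cube4, pr6⟩
  · exact ⟨gE5, vG5, siftG5, comm5, cube5, pr7⟩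

/-- The element of a lift. -/
noncomputable def gEl (i : Idx (0 : Fin 8) 1) : Elt := (gok i).choose

theorem gEl_ok (i : Idx (0 : Fin 8) 1) : GOK (gEl i) i.1 := (gok i).choose_spec

/-- The lifts, in the centralizer. -/
noncomputable def gC (i : Idx (0 : Fin 8) 1) : CC :=
  ⟨⟨permOf W M NN (gEl i), hA.mem_of_sift hd (gt_eq (gEl_ok i).v) (gEl_ok i).s⟩,
    Subgroup.mem_centralizer_singleton_iff.2 (Subtype.ext (comm_of_check (gEl_ok i).v vT hd (gEl_ok i).c))⟩

theorem pr_of_chk {e : Elt} {i : Fin 8} (hv : validB W M NN e = true) (h : chkPr e i = true) :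
    PrP (permOf W M NN e) (xx (0 : Fin 8) 1 i) := by
  intro p hp a b
  have h0 := h
  rw [chkPr, allN_eq _ hd, allB_iff] at h0
  have h1 := h0 p p.2
  have h2 : Nat.beq (gt W M tE p) p = true := by
    have h3 := gt_eq vT p
    have h4 : ((permOf W M NN tE p : Fin 275) : Nat) = p := congrArg Fin.val hp
    rw [h3, h4]
    simp
  rw [h2] at h1
  have h5 : decide (∀ a b : Fin 8, rN (gt W M e p) (xx (0 : Fin 8) 1 i a) (xx (0 : Fin 8) 1 i b) = rN p a b) = true := h1
  have h6 := of_decide_eq_true h5 a b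
  rw [gt_eq hv p] at h6
  exact h6

theorem gC_pr (i : Idx (0 : Fin 8) 1) : PrP (gC i).1.1 (xx (0 : Fin 8) 1 i.1) :=
  pr_of_chk (gEl_ok i).v (gEl_ok i).p

theorem gC_cube (i : Idx (0 : Fin 8) 1) : gC i ^ 3 = 1 := by
  apply Subtype.ext
  apply Subtype.ext
  exact pow_of_check (gEl_ok i).v hd (gEl_ok i).q

/-- The alternating group of degree eight. -/
abbrev A8 := alternatingGroup (Fin 8)

theorem card_A8 : Nat.card A8 = 20160 := by
  have h := two_mul_nat_card_alternatingGroup (α := Fin 8)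
  rw [Nat.card_perm, Nat.card_fin] at h
  have h2 : Nat.factorial 8 = 40320 := by decide
  show Nat.card ↥(alternatingGroup (Fin 8)) = 20160
  omega

theorem exists_pr_aux : ∀ σ ∈ Subgroup.closure (Set.range fun i : Idx (0 : Fin 8) 1 => xx (0 : Fin 8) 1 i.1),
    ∃ c : CC, PrP c.1.1 σ := by
  intro σ hσ
  induction hσ using Subgroup.closure_induction with
  | mem x hx =>
    obtain ⟨i, rfl⟩ := hx
    exact ⟨gC i, gC_pr i⟩
  | one => exact ⟨1, pr_one⟩
  | mul x y _ _ hx hy =>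
    obtain ⟨c, hc⟩ := hx
    obtain ⟨d, hd⟩ := hy
    exact ⟨c * d, pr_mul hc hd⟩
  | inv x _ hx =>
    obtain ⟨c, hc⟩ := hx
    exact ⟨c⁻¹, pr_inv hc⟩

theorem hgK : genGroup W M NN gK ≤ K := hA.gen_eq.le

/-- The bound for the centralizer from the conjugates of the involution. -/
theorem card_CC_le : Nat.card CC ≤ 2 * Nat.card A8 := by
  have hinj := keys_spec (N := 275) (by norm_num : 22275 ≤ 2 ^ 15) hA.base_lt
    (fun c => wordPerm W M NN gK (decW 7 c) * tP * (wordPerm W M NN gK (decW 7 c))⁻¹)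
    (fun c i => yF_eq vT vK (decW 7 c) i) orb_ok
  let x : Fin 22275 → K := fun i =>
    ⟨wordPerm W M NN gK (decW 7 (Nat.land (get 73 9444732965739290427391 orbK i) 268435455)),
      hgK (wordPerm_mem gK _)⟩
  have h1 := card_cent_le tK' x (fun i j h => hinj (congrArg Subtype.val h))
  rw [card_K] at h1
  have h2 : 22275 * Nat.card CC ≤ 898128000 := h1
  rw [card_A8]
  omega

theorem z_mem : tK' ∈ CC := Subgroup.mem_centralizer_singleton_iff.2 rfl

/-- The involution, in its centralizer. -/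
noncomputable abbrev zC : CC := ⟨tK', z_mem⟩

theorem zC_ne : zC ≠ 1 := fun h => t_ne (congrArg (fun y : CC => y.1.1) h)

theorem zC_sq : zC ^ 2 = 1 := by
  apply Subtype.ext
  apply Subtype.ext
  exact t_sq

theorem zC_pr : PrP zC.1.1 1 := by
  intro p hp i j
  show rN (tP p) i j = rN p i j
  rw [hp]

theorem main_hom : ∃ ρ : CC →* A8, Function.Surjective ρ ∧ (∀ c, PrP c.1.1 (ρ c).1) ∧
    Nat.card CC = 2 * Nat.card A8 := by
  refine graph_hom (fun (c : CC) (a : A8) => PrP c.1.1 a.1) pr_one (fun c c' a a' h h' => pr_mul h h')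
    (fun c a h => pr_inv h) (fun a h => ?_) (fun a => ?_) zC zC_ne zC_pr card_CC_le
  · exact Subtype.ext (pr_one_eq h)
  · exact exists_pr_aux a.1 (xx_closure (by decide) (Equiv.Perm.mem_alternatingGroup.1 a.2))

theorem pr_uniq {c : CC} {a b : Perm (Fin 8)} (h1 : PrP c.1.1 a) (h2 : PrP c.1.1 b) : a = b := by
  have h3 := pr_mul h1 (pr_inv h2)
  rw [mul_inv_cancel] at h3
  have h4 := pr_one_eq h3
  exact mul_inv_eq_one.1 h4

/-- The square root of the involution. -/
noncomputable abbrev xP : Perm (Fin 275) := permOf W M NN xE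

theorem xP_sq : xP * xP = tP :=
  eq_of_check (f := fun i => gt W M xE (gt W M xE i)) (g := gt W M tE)
    (fun i => by rw [Perm.mul_apply, ← gt_eq vX, ← gt_eq vX]) (gt_eq vT) hd sqX

theorem xP_K : xP ∈ K := hA.mem_of_sift hd (gt_eq vX) siftX

theorem xP_mem : (⟨xP, xP_K⟩ : K) ∈ CC := by
  refine Subgroup.mem_centralizer_singleton_iff.2 (Subtype.ext ?_)
  show xP * tP = tP * xP
  rw [← xP_sq, mul_assoc]

/-- No subgroup of index two in the centralizer. -/
theorem no_idx (ρ : CC →* A8) (hρ : Function.Surjective ρ) (hpr : ∀ c, PrP c.1.1 (ρ c).1)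
    (hcard : Nat.card CC = 2 * Nat.card A8) (L : Subgroup CC) (hL : L.index = 2) : False := by
  have hz : ρ zC = 1 := Subtype.ext (pr_uniq (hpr zC) zC_pr)
  refine no_index_two ρ zC (ker_eq_of_card zC zC_ne zC_sq ρ hρ hz hcard) (Set.range gC) ?_
    ⟨⟨xP, xP_K⟩, xP_mem⟩ ?_ ?_ L hL
  · rintro _ ⟨i, rfl⟩
    exact gC_cube i
  · apply Subtype.ext
    apply Subtype.ext
    show xP ^ 2 = tP
    rw [pow_two, xP_sq]
  · intro a
    have h1 : Subgroup.closure (Set.range fun i : Idx (0 : Fin 8) 1 => xx (0 : Fin 8) 1 i.1) ≤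
        (Subgroup.closure (ρ '' Set.range gC)).map (alternatingGroup (Fin 8)).subtype := by
      rw [Subgroup.closure_le]
      rintro _ ⟨i, rfl⟩
      refine ⟨ρ (gC i), Subgroup.subset_closure ⟨gC i, ⟨i, rfl⟩, rfl⟩, ?_⟩
      exact pr_uniq (hpr (gC i)) (gC_pr i)
    obtain ⟨d, hd, hda⟩ := h1 (xx_closure (by decide) (Equiv.Perm.mem_alternatingGroup.1 a.2))
    have h2 : d = a := Subtype.ext hda
    rwa [← h2]

/-! ### All involutions are conjugate -/

theorem hPle : genGroup W M NN pGens ≤ K := by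
  refine (Subgroup.closure_le _).mpr ?_
  rintro _ ⟨e, he, rfl⟩
  simp only [pGens, List.mem_cons, List.not_mem_nil, or_false] at he
  have hv : validB W M NN e = true := List.all_eq_true.1 vP e (by simp [pGens, he])
  rcases he with rfl | rfl | rfl | rfl | rfl | rfl | rfl
  · exact hA.mem_of_sift hd (gt_eq hv) siftP0
  · exact hA.mem_of_sift hd (gt_eq hv) siftP1
  · exact hA.mem_of_sift hd (gt_eq hv) siftP2
  · exact hA.mem_of_sift hd (gt_eq hv) siftP3
  · exact hA.mem_of_sift hd (gt_eq hv) siftP4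
  · exact hA.mem_of_sift hd (gt_eq hv) siftP5
  · exact hA.mem_of_sift hd (gt_eq hv) siftP6

theorem card_P : Nat.card (genGroup W M NN pGens) = 128 :=
  card_words hA vP hPle (by norm_num) (by decide) w0 (by norm_num) (by norm_num) mul_ok keyP_ok

theorem all_conj (x : K) (hx : orderOf x = 2) : IsConj x tK' := by
  refine conj_of_sylow ((genGroup W M NN pGens).subgroupOf K) 7 7016625 ?_ ?_ (by decide) tK' ?_ x hx
  · rw [Nat.card_congr (Subgroup.subgroupOfEquivOfLe hPle).toEquiv, card_P]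
    norm_num
  · rw [card_K]
    norm_num
  · intro y hy hy2 hy1
    have hy' : y.1 ∈ genGroup W M NN pGens := hy
    obtain ⟨e, he, hye⟩ := mem_words hA vP hPle (by norm_num) (by decide) w0 (by norm_num) mul_ok y.1 hy'
    have h2 : wordPerm W M NN pGens (wE 7 e) ^ 2 = 1 := by
      rw [← hye]
      exact congrArg Subtype.val hy2
    have h3 : wordPerm W M NN pGens (wE 7 e) ≠ 1 := by
      rw [← hye]
      exact fun h => hy1 (Subtype.ext h)
    obtain ⟨z, hz, hzz⟩ := inv_conj hA vT tK vK hgK vP hPle (by norm_num) w0 inv_ok he h2 h3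
    refine IsConj.symm (isConj_iff.2 ⟨⟨z, hz⟩, Subtype.ext ?_⟩)
    show z * tP * z⁻¹ = y.1
    rw [hye]
    exact hzz

theorem t_order : orderOf tK' = 2 := by
  refine orderOf_eq_prime ?_ ?_
  · exact Subtype.ext t_sq
  · exact fun h => t_ne (congrArg Subtype.val h)

/-- The main theorem. -/
theorem main : (∀ x y : ↥Cfsg.Spor.McL, orderOf x = 2 → orderOf y = 2 → IsConj x y) ∧
    ∃ t : ↥Cfsg.Spor.McL, orderOf t = 2 ∧
      IsNonsplitDoubleCover ↥(Subgroup.centralizer ({t} : Set ↥Cfsg.Spor.McL)) ↥(alternatingGroup (Fin 8)) := by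
  obtain ⟨e1⟩ := Cfsg.Agent.Lib.Sporadic.LeechGroups.exists_iso_McL
  let e0 : ↥Cfsg.Spor.McL ≃* K := e1.trans (MonoidHom.ofInjective hRep.2)
  constructor
  · intro x y hx hy
    have h1 : IsConj (e0 x) tK' := all_conj _ (by rw [MulEquiv.orderOf_eq]; exact hx)
    have h2 : IsConj (e0 y) tK' := all_conj _ (by rw [MulEquiv.orderOf_eq]; exact hy)
    have h3 := MonoidHom.map_isConj e0.symm.toMonoidHom (h1.trans h2.symm)
    simpa using h3
  · obtain ⟨ρ, hρ, hpr, hcard⟩ := main_hom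
    haveI : IsSimpleGroup (alternatingGroup (Fin 8)) := alternatingGroup.isSimpleGroup (by simp)
    refine ⟨e0.symm tK', by rw [MulEquiv.orderOf_eq]; exact t_order, ?_⟩
    refine cover_transport ?_ e0 (e0.symm tK') tK' (e0.apply_symm_apply _) ?_ ?_ ρ hρ ?_ hcard ?_
    · rw [card_A8]
      norm_num
    · exact fun h => t_ne (congrArg Subtype.val h)
    · exact Subtype.ext t_sq
    · exact Subtype.ext (pr_uniq (hpr zC) zC_pr)
    · intro L hL
      exact no_idx ρ hρ hpr hcard L hL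

end Cfsg.Agent.Lib.Compute.McLInv.Main
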